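import Mathlib
import Cfsg.Agent.Lib.TwoGrp.Rank2

/-! Fixed-point-free 3-elements on 2-groups of rank two. -/

set_option autoImplicit false

namespace CfsgLib.TwoGrp

open Subgroup Cfsg

variable {S : Type*} [Group S]

theorem isKleinFour_sup_zpowers {a b : S} (ha2 : a * a = 1) (hb2 : b * b = 1) (hc : a * b = b * a)
    (ha : a ≠ 1) (hb : b ≠ 1) (hab : a ≠ b) : IsKleinFour ↥(zpowers a ⊔ zpowers b) := by
  refine isKleinFour_of_mem_iff ha2 hb2 hc ha hb hab fun g => ?_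
  have hz : ∀ g, g ∈ zpowers (a : S) ↔ g = 1 ∨ g = a := fun g => by
    have := mem_sup_zpowers_iff (C := ⊥) (y := (a : S)) (g := g)
      (mem_normalizer_of_comm (by simp)) ha2
    simpa using this
  rw [mem_sup_zpowers_iff (mem_normalizer_of_comm fun c hc' => by
    rcases (hz c).1 hc' with rfl | rfl
    · simp
    · exact hc.symm) (hb2 ▸ one_mem _)]
  simp only [hz, exists_eq_or_imp, exists_eq_left, one_mul, or_assoc]

theorem exists_eight_of_not_mem [Finite S] {V : Subgroup S} (hV : IsKleinFour V) {x : S}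
    (hx : x * x = 1) (hc : ∀ a ∈ V, x * a = a * x) (hxV : x ∉ V) :
    ∃ E : Subgroup S, IsElementaryAbelian 2 E ∧ Nat.card E = 8 := by
  have hn := mem_normalizer_of_comm hc
  have hm := fun g => mem_sup_zpowers_iff (g := g) hn (hx ▸ V.one_mem)
  have h2 : ∀ g ∈ V ⊔ zpowers x, g * g = 1 := fun g hg => by
    rcases (hm g).1 hg with e | ⟨c, hc', rfl⟩
    · exact mul_self_of_isKleinFour hV e
    · rw [mul_assoc, ← mul_assoc x, hc c hc', mul_assoc, hx, mul_one, mul_self_of_isKleinFour hV hc']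
  refine ⟨V ⊔ zpowers x, ⟨PGroup.isMulCommutative_iff.2 fun a ha b hb => ?_,
    fun a ha => (pow_two a).trans (h2 a ha)⟩, ?_⟩
  · have e := h2 _ (mul_mem ha hb)
    rw [← mul_left_inj (a * b), e, mul_assoc, ← mul_assoc a, h2 a ha, one_mul, h2 b hb]
  · rw [card_sup_zpowers hn (hx ▸ V.one_mem) hxV, hV.card_four]

theorem exists_tri_of_fpf [Finite S] [Nontrivial S] (hS : IsPGroup 2 S) (hr : PRankLE 2 2 S)
    {σ : MulAut S} (hσ : ∀ u, u * u = 1 → u ≠ 1 → σ u ≠ u) : ∃ v, Tri σ v := by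
  obtain ⟨z, -, hzc, hz2⟩ := PGroup.exists_mem_center_orderOf_eq hS ⊤ top_ne_bot
  have hz1 : z ≠ 1 := fun e => by rw [e, orderOf_one] at hz2; omega
  have hzz : z * z = 1 := by rw [← pow_two, ← hz2, pow_orderOf_eq_one]
  have hsc : σ z ∈ center S := PGroup.apply_mem_of_characteristic σ hzc
  have hV := isKleinFour_sup_zpowers (b := σ z) hzz (by rw [← map_mul, hzz, map_one])
    (mem_center_iff.1 hsc z) hz1 (fun e => hz1 (σ.map_eq_one_iff.1 e)) (hσ z hzz hz1).symm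
  have hc : zpowers z ⊔ zpowers (σ z) ≤ center S :=
    sup_le (zpowers_le.2 hzc) (zpowers_le.2 hsc)
  exact ⟨z, tri_of_four hS hV hc
    (fun x hx => mem_of_pRankLE hr hV hx fun a ha => mem_center_iff.1 (hc ha) x) hσ hzz hz1⟩

/-- If `σ`, `σ τ`, `σ τ²` all have trivial norm map then `τ` is trivial on a 2-group. -/
theorem eq_one_of_norms (hS : IsPGroup 2 S) {σ τ : MulAut S} (hc : ∀ x, τ (σ x) = σ (τ x))
    (h3 : ∀ x, τ (τ (τ x)) = x) (h0 : ∀ x, x * σ x * σ (σ x) = 1)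
    (h1 : ∀ x, x * σ (τ x) * σ (τ (σ (τ x))) = 1)
    (h2 : ∀ x, x * σ (τ (τ x)) * σ (τ (τ (σ (τ (τ x))))) = 1) (x : S) : τ x = x := by
  have e0 : ∀ y, σ (σ y) = (y * σ y)⁻¹ := fun y => eq_inv_of_mul_eq_one_right (h0 y)
  have e1 := h1 x
  have e2 := h2 x
  rw [hc, e0] at e1
  rw [hc, hc, h3, e0] at e2
  rw [mul_inv_eq_one] at e1 e2
  have e3 : σ (τ (τ x)) = x⁻¹ * τ x * σ (τ x) := by rw [mul_assoc, ← e2]; group
  rw [e3, ← mul_assoc, mul_left_inj] at e1
  set u := x⁻¹ * τ x with hu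
  have e4 : τ u = (u * u)⁻¹ := by
    have : τ (τ x) = x * u⁻¹ := eq_mul_inv_of_mul_eq e1.symm
    rw [hu, map_mul, map_inv, this, hu]; group
  have e5 := h3 u
  simp only [e4, map_inv, map_mul] at e5
  have e6 : u ^ 9 = 1 := by
    have : u ^ 9 = u * (u * u * (u * u) * (u * u * (u * u))) := by
      simp only [pow_succ, pow_zero, one_mul, mul_assoc]
    rw [this]; nth_rewrite 1 [← e5]; group
  obtain ⟨k, hk⟩ := hS u
  have h9 := orderOf_dvd_of_pow_eq_one e6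
  have h2k := orderOf_dvd_of_pow_eq_one hk
  have : orderOf u = 1 := Nat.eq_one_of_dvd_coprimes
    (Nat.Coprime.pow_right k (by norm_num : Nat.Coprime 9 2)) h9 h2k
  rw [orderOf_eq_one_iff, hu, inv_mul_eq_one] at this
  exact this.symm

theorem Tri.congr {σ ρ : MulAut S} {v : S} (h : Tri σ v) (e : ∀ u, u * u = 1 → ρ u = σ u) :
    Tri ρ v :=
  ⟨h.pg, h.ne_one, h.sq, h.cent, by rw [e v h.sq]; exact h.ne,
    by rw [e v h.sq, e _ h.sq']; exact h.ss, by rw [e v h.sq]; exact h.all⟩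

theorem Tri.conj {σ : MulAut S} {v : S} (h : Tri σ v) (φ : MulAut S) :
    Tri (φ * σ * φ⁻¹) (φ v) := by
  have e : ∀ u, (φ * σ * φ⁻¹) (φ u) = φ (σ u) := fun u => by simp
  refine ⟨h.pg, fun e => h.ne_one (φ.map_eq_one_iff.1 e), by rw [← map_mul, h.sq, map_one],
    PGroup.apply_mem_of_characteristic φ h.cent, by rw [e]; exact fun e => h.ne (φ.injective e),
    by rw [e, e, h.ss, map_mul], fun x hx => ?_⟩
  obtain ⟨y, rfl⟩ := φ.surjective x
  rw [← map_mul, φ.map_eq_one_iff] at hx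
  rw [e, ← map_mul]
  rcases h.all y hx with rfl | rfl | rfl | rfl <;> simp

theorem Tri.norm [Finite S] {σ : MulAut S} {v : S} (h : Tri σ v) {a : ℕ} (ha : σ ^ 3 ^ a = 1)
    (x : S) : x * σ x * σ (σ x) = 1 :=
  fpf3_norm h.fpf (Tri.sss_all (h.cube_eq_one ha)) x

/-- If a 3-automorphism permutes the three involutions cyclically, then no automorphism of order
three fixes all involutions. -/
theorem Tri.eq_one_of_fix [Finite S] {σ : MulAut S} {v : S} (h : Tri σ v) {a : ℕ}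
    (ha : σ ^ 3 ^ a = 1) {τ : MulAut S} (hτ : τ ^ 3 = 1) (hfix : ∀ u, u * u = 1 → τ u = u) :
    τ = 1 := by
  by_contra hτ1
  have : Fact (Nat.Prime 3) := ⟨Nat.prime_three⟩
  let K : Subgroup (MulAut S) :=
    { carrier := {φ | ∀ u, u * u = 1 → φ u = u}
      one_mem' := fun _ _ => rfl
      mul_mem' := fun {a b} ha hb u hu => by rw [MulAut.mul_apply, hb u hu, ha u hu]
      inv_mem' := fun {a} ha u hu => by
        nth_rewrite 1 [← ha u hu]; exact MulAut.inv_apply_self _ _ _ }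
  have hK : K.Normal := ⟨fun n hn g u hu => by
    rw [MulAut.mul_apply, MulAut.mul_apply, hn _ (by rw [← map_mul, hu, map_one])]
    exact MulAut.apply_inv_self _ _ _⟩
  have p3 : ∀ {φ : MulAut S} {k : ℕ}, φ ^ 3 ^ k = 1 → IsPGroup 3 (zpowers φ) := fun {φ k} hk => by
    rintro ⟨_, n, rfl⟩
    exact ⟨k, Subtype.ext (by
      change (φ ^ n) ^ 3 ^ k = 1
      rw [← zpow_natCast, ← zpow_mul, mul_comm, zpow_mul, zpow_natCast, hk, one_zpow])⟩
  obtain ⟨D, hD⟩ := (p3 (k := 1) (by simpa using hτ)).exists_le_sylow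
  obtain ⟨D', hD'⟩ := (p3 ha).exists_le_sylow
  obtain ⟨φ, hφ⟩ := MulAction.exists_smul_eq (MulAut S) D' D
  have hσ : φ * σ * φ⁻¹ ∈ D := by
    rw [← hφ]
    exact ⟨σ, hD' (mem_zpowers σ), rfl⟩
  have h' := h.conj φ
  set s := φ * σ * φ⁻¹
  obtain ⟨c, hcK, hcc, hc3⟩ := PGroup.exists_mem_center_orderOf_eq D.isPGroup' (K.subgroupOf D)
    fun e => by
      have h1 : (⟨τ, hD (mem_zpowers τ)⟩ : D) ∈ K.subgroupOf D := hfix
      rw [e, mem_bot] at h1
      exact hτ1 (congrArg Subtype.val h1)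
  have hn : ∀ ρ ∈ D, (∀ u, u * u = 1 → ρ u = s u) → ∀ x, x * ρ x * ρ (ρ x) = 1 := by
    intro ρ hρ e x
    obtain ⟨k, hk⟩ := D.isPGroup' ⟨ρ, hρ⟩
    exact (h'.congr e).norm (congrArg Subtype.val hk) x
  have hcK' : ∀ u, u * u = 1 → (c : MulAut S) u = u := hcK
  have hc : (c : MulAut S) = 1 := by
    ext x
    refine eq_one_of_norms h.pg (σ := s) (τ := c) (fun x => ?_) (Tri.sss_all ?_)
      (hn s hσ fun _ _ => rfl) (hn (s * c) (mul_mem hσ c.2) fun u hu => ?_)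
      (hn (s * c * c) (mul_mem (mul_mem hσ c.2) c.2) fun u hu => ?_) x
    · exact (DFunLike.congr_fun (congrArg Subtype.val (mem_center_iff.1 hcc ⟨s, hσ⟩)) x).symm
    · exact congrArg Subtype.val (hc3 ▸ pow_orderOf_eq_one c)
    · rw [MulAut.mul_apply, hcK' u hu]
    · rw [MulAut.mul_apply, MulAut.mul_apply, hcK' u hu, hcK' u hu]
  rw [show c = 1 from Subtype.ext hc, orderOf_one] at hc3
  omega

end CfsgLib.TwoGrp
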